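import Mathlib.LinearAlgebra.Lagrange
import Mathlib.Data.Nat.Prime.Factorial
import Mathlib.Algebra.Polynomial.Taylor
import Mathlib.FieldTheory.Finite.Basic
import Mathlib.RingTheory.Polynomial.Cyclotomic.Roots
import Mathlib.RingTheory.RootsOfUnity.Complex
import Mathlib.NumberTheory.LegendreSymbol.AddCharacter

/-! Permutations of the prime field preserving a difference relation; powers of subsets in the group ring. -/

set_option autoImplicit false

namespace Cfsg.Agent.Perm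
open Polynomial Finset

variable {p : ℕ} [hp : Fact p.Prime]

theorem exists_sum_pow_ne_zero {F : Type*} [Field F] {U : Finset F} (h0 : 0 ∉ U) (h1 : U.Nonempty) :
    ∃ k, 0 < k ∧ k ≤ #U ∧ ∑ u ∈ U, u ^ k ≠ 0 := by
  classical
  by_contra h
  push Not at h
  obtain ⟨u, hu⟩ := h1
  set f : F[X] := X * ∏ v ∈ U.erase u, (X - C v) with hf
  have h2 : f.natDegree < #U + 1 := by
    have := natDegree_mul_le (p := (X : F[X])) (q := ∏ v ∈ U.erase u, (X - C v))
    rw [natDegree_X, natDegree_prod_of_monic _ _ fun v _ => monic_X_sub_C v] at this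
    simp only [natDegree_X_sub_C, sum_const, card_erase_of_mem hu, smul_eq_mul, mul_one] at this
    have := card_pos.mpr ⟨u, hu⟩
    rw [hf]; omega
  have h3 : ∑ v ∈ U, f.eval v = 0 := by
    simp only [eval_eq_sum_range' h2]
    rw [sum_comm]
    refine sum_eq_zero fun k hk => ?_
    rw [← mul_sum]
    rcases k with _ | k
    · simp [hf]
    · rw [h _ k.succ_pos (by simpa [Nat.lt_succ_iff] using hk), mul_zero]
  rw [sum_eq_single_of_mem u hu fun v hv e => by
    simpa [hf, eval_prod, prod_eq_zero_iff, sub_eq_zero] using Or.inr ⟨e, hv⟩] at h3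
  simp only [hf, eval_mul, eval_X, eval_prod, eval_sub, eval_C, mul_eq_zero, prod_eq_zero_iff, mem_erase, sub_eq_zero] at h3
  obtain rfl | ⟨v, h4, e⟩ := h3
  exacts [h0 hu, h4.1 e.symm]

theorem image_diff {U : Finset (ZMod p)} {π : ZMod p → ZMod p} (hπ : Function.Injective π)
    (h : ∀ i j, i - j ∈ U → π i - π j ∈ U) (j : ZMod p) : U.image (fun u => π (u + j) - π j) = U :=
  eq_of_subset_of_card_le (image_subset_iff.mpr fun u hu => h _ _ (by simpa))
    (card_image_of_injective _ fun a b e => by simpa [hπ.eq_iff] using e).ge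

theorem affine_of_diff' {U : Finset (ZMod p)} (h0 : 0 ∉ U) (h1 : U.Nonempty) (h2 : 2 * #U < p) {π : ZMod p → ZMod p}
    (hπ : Function.Injective π) (h : ∀ i j, i - j ∈ U → π i - π j ∈ U) : ∃ c d, ∀ i, π i = c * i + d := by
  set f := Lagrange.interpolate univ id π with hf
  have h3 : ∀ i, f.eval i = π i := fun i => Lagrange.eval_interpolate_at_node π (Set.injOn_id _) (mem_univ i)
  have h4 : f.natDegree ≠ 0 := fun e => zero_ne_one (hπ (by
    rw [← h3, ← h3, eq_C_of_natDegree_eq_zero e, eval_C, eval_C]))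
  have h5 : f ≠ 0 := by rintro e; simp [e] at h4
  have h6 : f.natDegree < p := (natDegree_lt_iff_degree_lt h5).mpr (by
    simpa only [card_univ, ZMod.card] using Lagrange.degree_interpolate_lt π (s := univ) (Set.injOn_id _))
  suffices f.natDegree ≤ 1 from ⟨f.coeff 1, f.coeff 0, fun i => by
    rw [← h3, eq_X_add_C_of_natDegree_le_one this]; simp⟩
  set n := f.natDegree with hn
  set w := (p - 1) / n with hw
  have h7 : w * n < p := (Nat.div_mul_le_self _ _).trans_lt (by omega)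
  have h8 : #U ≤ w * n := by
    have := Nat.lt_div_mul_add (a := p - 1) (Nat.pos_of_ne_zero h4)
    have : 1 * n ≤ w * n := Nat.mul_le_mul_right _ ((Nat.le_div_iff_mul_le (Nat.pos_of_ne_zero h4)).mpr (by omega))
    rw [← hw] at *
    omega
  have h9 : (f ^ w).natDegree = w * n := natDegree_pow f w
  have e : ∑ u ∈ U, taylor u (f ^ w) = ∑ u ∈ U, (f + C u) ^ w := by
    refine eq_of_natDegree_lt_card_of_eval_eq _ _ Function.injective_id (fun i => ?_) ?_
    · conv_rhs => rw [← image_diff hπ h i, sum_image fun a _ b _ e => by simpa [hπ.eq_iff] using e]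
      simp [eval_finsetSum, taylor_eval, h3, add_comm]
    · rw [ZMod.card, max_lt_iff]
      exact ⟨(natDegree_sum_le_of_forall_le _ _ fun u _ => by rw [natDegree_taylor, h9]).trans_lt h7,
        (natDegree_sum_le_of_forall_le _ _ fun u _ => by rw [natDegree_pow, natDegree_add_C]).trans_lt h7⟩
  obtain ⟨r, ⟨b1, b2, b3⟩, b4⟩ : ∃ r, (0 < r ∧ r ≤ #U ∧ ∑ u ∈ U, u ^ r ≠ 0) ∧
      ∀ k < r, ¬ (0 < k ∧ k ≤ #U ∧ ∑ u ∈ U, u ^ k ≠ 0) := by
    classical exact ⟨_, Nat.find_spec (exists_sum_pow_ne_zero h0 h1), fun k => Nat.find_min _⟩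
  have b5 : ∀ k, 0 < k → k < r → ∑ u ∈ U, u ^ k = 0 := fun k a b => by_contra fun c => b4 k b ⟨a, by omega, c⟩
  have e1 := congrArg (coeff · (w * n - r)) e
  have b6 : (hasseDeriv (w * n - r) (f ^ w)).natDegree < r + 1 := by
    have := natDegree_hasseDeriv_le (f ^ w) (w * n - r)
    omega
  by_contra b7
  have L : ∑ u ∈ U, (taylor u (f ^ w)).coeff (w * n - r) = ∑ u ∈ U, (f ^ w).coeff (w * n - r) +
      (w * n).choose (w * n - r) * (f ^ w).coeff (w * n) * ∑ u ∈ U, u ^ r := by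
    simp only [taylor_coeff, eval_eq_sum_range' b6]
    rw [sum_comm, sum_range_succ, sum_eq_single_of_mem 0 (mem_range.mpr b1) fun k hk k0 => by
      rw [← mul_sum, b5 k (Nat.pos_of_ne_zero k0) (mem_range.mp hk), mul_zero], ← mul_sum _ _ (coeff _ r)]
    simp [hasseDeriv_coeff, Nat.add_sub_cancel' (b2.trans h8)]
  have R : ∑ u ∈ U, ((f + C u) ^ w).coeff (w * n - r) = ∑ u ∈ U, (f ^ w).coeff (w * n - r) := by
    simp only [add_comm f, add_pow, finsetSum_coeff]
    rw [sum_comm, sum_range_succ', sum_eq_zero fun k hk => ?_]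
    · simp
    simp only [← C_pow, ← C_eq_natCast, coeff_mul_C, coeff_C_mul, ← sum_mul]
    by_cases b8 : k + 1 < r
    · simp [b5 _ k.succ_pos b8]
    · rw [coeff_eq_zero_of_natDegree_lt (p := f ^ _), mul_zero, zero_mul]
      have b9 := mem_range.mp hk
      obtain ⟨m, hm⟩ := Nat.exists_eq_add_of_lt b9
      rw [natDegree_pow, ← hn, show w - (k + 1) = m by omega, lt_tsub_iff_right, hm]
      nlinarith
  simp only [finsetSum_coeff, L, R, add_eq_left, mul_eq_zero, b3, or_false] at e1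
  rcases e1 with e1 | e1
  · exact absurd ((ZMod.natCast_eq_zero_iff _ _).mp e1) (fun e => by
      have := (Nat.Prime.dvd_factorial hp.out).mp (e.trans (Dvd.intro _ (by
        rw [← Nat.choose_mul_factorial_mul_factorial (Nat.sub_le (w * n) r), mul_assoc])))
      omega)
  · rw [← h9, coeff_natDegree, leadingCoeff_eq_zero] at e1
    exact pow_ne_zero _ h5 e1

/-- A permutation of the prime field preserving a non-trivial difference relation is affine. -/
theorem affine_of_diff {U : Finset (ZMod p)} (h0 : 0 ∉ U) (h1 : U.Nonempty) {v : ZMod p} (h2 : v ≠ 0) (h3 : v ∉ U)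
    {π : ZMod p → ZMod p} (hπ : Function.Injective π) (h : ∀ i j, i - j ∈ U → π i - π j ∈ U) :
    ∃ c d, ∀ i, π i = c * i + d := by
  by_cases h4 : 2 * #U < p
  · exact affine_of_diff' h0 h1 h4 hπ h
  have h5 : #(insert 0 U)ᶜ + (#U + 1) = p := by
    rw [← card_insert_of_notMem h0, card_compl_add_card, ZMod.card]
  refine affine_of_diff' (U := (insert 0 U)ᶜ) (by simp) ⟨v, by simp [h2, h3]⟩ (by omega) hπ fun i j hij => ?_
  simp only [mem_compl, mem_insert, not_or, sub_eq_zero, hπ.eq_iff] at hij ⊢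
  refine ⟨hij.1, fun e => hij.2 ?_⟩
  rw [← image_diff hπ h j] at e
  obtain ⟨u, hu, e⟩ := mem_image.mp e
  simpa [← hπ (sub_left_injective e)]

theorem coeff_pow_eq (R : Type) [CommRing R] {S : Finset (ZMod p)} {ρ : ℕ → ZMod p → ZMod p → Prop}
    (h0 : ∀ i i', ρ 0 i i' → (i = 0 ↔ i' = 0))
    (h1 : ∀ n i i', ρ (n + 1) i i' → ∃ σ : Equiv.Perm (ZMod p), ∀ j, ρ n j (σ j) ∧ (i - j ∈ S ↔ i' - σ j ∈ S))
    (n : ℕ) (i i' : ZMod p) (h : ρ n i i') : ((∑ s ∈ S, AddMonoidAlgebra.single s (1 : R)) ^ n).coeff i =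
      ((∑ s ∈ S, AddMonoidAlgebra.single s (1 : R)) ^ n).coeff i' := by
  induction n generalizing i i' with
  | zero => simp [AddMonoidAlgebra.one_def, Finsupp.single_apply, eq_comm (a := (0 : ZMod p)), h0 i i' h]
  | succ n ih =>
    obtain ⟨σ, hσ⟩ := h1 n i i' h
    simp only [pow_succ, AddMonoidAlgebra.coeff_mul_apply_left]
    rw [Finsupp.sum_fintype _ _ (by simp), Finsupp.sum_fintype _ _ (by simp)]
    refine Fintype.sum_equiv σ _ _ fun j => ?_
    simp [ih _ _ (hσ j).1, Finsupp.single_apply, neg_add_eq_sub, (hσ j).2]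

theorem eq_of_sum_eq {ζ : ℂ} (hζ : IsPrimitiveRoot ζ p) {α : ZMod p → ℤ} (h : ∑ i, α i * ζ ^ i.val = 0) (i j : ZMod p) :
    α i = α j := by
  obtain ⟨n, rfl⟩ := Nat.exists_eq_succ_of_ne_zero hp.out.ne_zero
  exact (IsPrimitiveRoot.sum_eq_zero_iff_forall_eq_int hp.out hζ α).mp h i j

/-- A subset of the prime field whose `p`-th power in the group ring is constant off a point is trivial. -/
theorem exists_mem_iff {S : Finset (ZMod p)} (hS : S.Nonempty) (hS' : S ≠ univ) {r : ZMod p}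
    (h : ∀ (R : Type) [CommRing R] i i', r + i ≠ 0 → r + i' ≠ 0 →
      ((∑ s ∈ S, AddMonoidAlgebra.single s (1 : R)) ^ p).coeff i =
      ((∑ s ∈ S, AddMonoidAlgebra.single s (1 : R)) ^ p).coeff i') :
    ∃ u, ∀ i ≠ u, ∀ i' ≠ u, i ∈ S → i' ∈ S := by
  by_cases h2 : ∀ i : ZMod p, i ≠ 0 → i = 1
  · exact ⟨0, fun i a i' b => by simp [h2 i a, h2 i' b]⟩
  push Not at h2
  obtain ⟨g, g0, g1⟩ := h2
  have hk : (#S : ZMod p) ≠ 0 := fun e => (Nat.le_of_dvd hS.card_pos ((ZMod.natCast_eq_zero_iff _ _).mp e)).not_gt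
    ((card_lt_card (ssubset_univ_iff.mpr hS')).trans_eq (by simp))
  obtain rfl : r = 0 := by_contra fun hr => by
    have : CharP (AddMonoidAlgebra (ZMod p) (ZMod p)) p := charP_of_injective_algebraMap (R := ZMod p)
      (algebraMap (ZMod p) _).injective p
    have := h (ZMod p) 0 (-g * r) (by simpa) (by
      rw [show r + -g * r = (1 - g) * r by ring]; exact mul_ne_zero (sub_ne_zero.mpr g1.symm) hr)
    simp [sum_pow_char, AddMonoidAlgebra.single_pow, g0, hr, hk] at this
  obtain ⟨ζ, hζ⟩ : ∃ ζ : ℂ, IsPrimitiveRoot ζ p := ⟨_, Complex.isPrimitiveRoot_exp p hp.out.ne_zero⟩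
  set ψ := AddChar.zmodChar p hζ.pow_eq_one with hψ
  have h3 : ∀ m : ZMod p, m ≠ 0 → (∑ s ∈ S, ψ (m * s)) ^ p = (∑ s ∈ S, ψ s) ^ p := by
    have key : ∀ m : ZMod p, m ≠ 0 → (∑ s ∈ S, ψ (m * s)) ^ p =
        ((∑ s ∈ S, AddMonoidAlgebra.single s (1 : ℂ)) ^ p).coeff 0 -
        ((∑ s ∈ S, AddMonoidAlgebra.single s (1 : ℂ)) ^ p).coeff 1 := fun m hm => by
      have h4 := AddMonoidAlgebra.lift_apply (R := ℂ) (ψ.mulShift m).toMonoidHom
        ((∑ s ∈ S, AddMonoidAlgebra.single s (1 : ℂ)) ^ p)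
      rw [map_pow, map_sum] at h4
      have h6 := h ℂ
      generalize (∑ s ∈ S, AddMonoidAlgebra.single s (1 : ℂ)) ^ p = F at h4 h6 ⊢
      have h5 := AddChar.sum_eq_zero_of_ne_one (AddChar.zmodChar_primitive_of_primitive_root p hζ hm)
      rw [Finsupp.sum_fintype _ _ (by simp), ← add_sum_erase _ _ (mem_univ 0), sum_congr (s₁ := univ.erase 0) rfl fun i hi => by
        rw [h6 i 1 (by simpa using hi) (by simp)], ← smul_sum] at h4
      replace h5 : ∑ x, ψ (m * x) = 0 := h5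
      simpa [h5, sub_eq_add_neg] using h4
    exact fun m hm => (key m hm).trans (by simpa using (key 1 one_ne_zero).symm)
  have h4 : ∀ T : Finset (ZMod p), ∑ s ∈ T, ψ s = ∑ i : ZMod p, ((if i ∈ T then 1 else 0 : ℤ) : ℂ) * ζ ^ i.val := fun T => by
    simp [hψ, AddChar.zmodChar_apply]
  have h5 : ∑ s ∈ S, ψ s ≠ 0 := fun e => by
    obtain ⟨a, ha⟩ := hS
    exact hS' (eq_univ_of_forall fun b => by simpa [ha] using eq_of_sum_eq hζ ((h4 S).symm.trans e) a b)
  have h6 : ∀ m : ZMod p, m ≠ 0 → ∃ t, S.image (m * ·) = S.image (t + ·) := fun m hm => by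
    obtain ⟨t, -, ht⟩ := hζ.eq_pow_of_pow_eq_one (ξ := (∑ s ∈ S, ψ (m * s)) / ∑ s ∈ S, ψ s)
      (by rw [div_pow, h3 m hm, div_self (pow_ne_zero _ h5)])
    rw [eq_div_iff h5, ← AddChar.zmodChar_apply' hζ.pow_eq_one, mul_sum] at ht
    simp only [← hψ, ← AddChar.map_add_eq_mul] at ht
    rw [← sum_image (f := ψ) (add_right_injective _).injOn, ← sum_image (f := ψ) (mul_right_injective₀ hm).injOn, h4, h4,
      ← sub_eq_zero, ← sum_sub_distrib] at ht
    have h7 := eq_of_sum_eq hζ (α := fun i => (if i ∈ S.image ((t : ZMod p) + ·) then 1 else 0) -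
      if i ∈ S.image (m * ·) then 1 else 0) (by simpa only [Int.cast_sub, sub_mul] using ht)
    refine ⟨t, eq_of_subset_of_card_le (fun i hi => by_contra fun hi' => ?_) (by
      rw [card_image_of_injective _ (add_right_injective _), card_image_of_injective _ (mul_right_injective₀ hm)])⟩
    obtain ⟨a, ha⟩ := hS.image ((t : ZMod p) + ·)
    have := h7 i a
    simp only [hi, hi', ha, if_true, if_false] at this
    split_ifs at this <;> omega
  refine ⟨(∑ s ∈ S, s) / #S, fun i a i' b hi => ?_⟩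
  obtain ⟨t, ht⟩ := h6 _ (div_ne_zero (sub_ne_zero.mpr a) (sub_ne_zero.mpr b))
  have h7 := congrArg (∑ s ∈ ·, s) ht
  simp only [sum_image (add_right_injective _).injOn,
    sum_image (mul_right_injective₀ (div_ne_zero (sub_ne_zero.mpr a) (sub_ne_zero.mpr b))).injOn] at h7
  rw [← mul_sum, sum_add_distrib, sum_const, nsmul_eq_mul] at h7
  obtain ⟨s, hs, e⟩ := mem_image.mp (ht.ge (mem_image_of_mem (t + ·) hi))
  refine mul_left_cancel₀ (div_ne_zero (sub_ne_zero.mpr a) (sub_ne_zero.mpr b)) (e.trans ?_ : _ = _ * i') ▸ hs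
  have := sub_ne_zero.mpr b
  rw [← mul_right_inj' hk]
  generalize hu : (∑ s ∈ S, s) / #S = u at *
  rw [div_eq_iff hk] at hu
  rw [hu] at h7
  linear_combination (exp := 1) -h7 - #S * div_mul_cancel₀ (i - u) this

end Cfsg.Agent.Perm
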