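import Mathlib.GroupTheory.Sylow
import Mathlib.GroupTheory.GroupAction.MultiplePrimitivity
import Mathlib.Data.Set.Card.Arithmetic
import Mathlib.Algebra.Group.Pointwise.Set.Card

/-! Invariant systems of blocks for the point stabilisers of a doubly transitive group of degree `p² + 1`. -/

set_option autoImplicit false

namespace Cfsg.Agent.Perm
open MulAction Pointwise

variable {G Ω : Type*} [Group G] [MulAction G Ω]

theorem ncard_orbit (A : Subgroup G) (b : Ω) : (orbit A b).ncard = (stabilizer G b).relIndex A :=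
  (index_stabilizer A b).symm

theorem card_eq_mul (A : Subgroup G) (b : Ω) : Nat.card A = Nat.card ↥(A ⊓ stabilizer G b) * (orbit A b).ncard := by
  rw [ncard_orbit, ← Subgroup.inf_relIndex_left, ← Subgroup.relIndex_bot_left, ← Subgroup.relIndex_bot_left,
    Subgroup.relIndex_mul_relIndex _ _ _ bot_le inf_le_left]

theorem mem_orbit_sub {A : Subgroup G} {b y : Ω} : y ∈ orbit A b ↔ ∃ g ∈ A, g • b = y :=
  ⟨fun ⟨g, e⟩ => ⟨g, g.2, e⟩, fun ⟨g, h, e⟩ => ⟨⟨g, h⟩, e⟩⟩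

variable [Finite G]

/-- A submonoid of a finite group is a subgroup. -/
def sub (N : Submonoid G) : Subgroup G :=
  { N with
    inv_mem' := fun {x} hx => by
      rw [inv_eq_of_mul_eq_one_right (b := x ^ (orderOf x - 1)) (by
        rw [← pow_succ', Nat.sub_add_cancel (orderOf_pos x), pow_orderOf_eq_one])]
      exact pow_mem (show x ∈ N from hx) _ }

theorem ncard_fix_dvd (A : Subgroup G) (b : Ω) :
    {y ∈ orbit A b | ∀ g ∈ A, g • b = b → g • y = y}.ncard ∣ (orbit A b).ncard := by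
  let N := sub (G := G)
    { carrier := {x ∈ A | ∀ g ∈ A, g • b = b → g • x • b = x • b}
      one_mem' := ⟨one_mem A, by simp⟩
      mul_mem' := fun {x y} hx hy => ⟨mul_mem hx.1 hy.1, fun g hg e => by
        have := hy.2 _ (mul_mem (mul_mem (inv_mem hx.1) hg) hx.1) (by simp [mul_smul, hx.2 g hg e])
        simpa [mul_smul, inv_smul_eq_iff] using this⟩ }
  have h1 : {y ∈ orbit A b | ∀ g ∈ A, g • b = b → g • y = y} = orbit N b := Set.ext fun y => by
    simp only [mem_orbit_sub, Set.mem_ofPred_eq]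
    exact ⟨fun ⟨⟨x, hx, e⟩, h⟩ => ⟨x, ⟨hx, e ▸ h⟩, e⟩, fun ⟨x, hx, e⟩ => ⟨⟨x, hx.1, e⟩, e ▸ hx.2⟩⟩
  have h2 : N ≤ A := fun _ h => h.1
  have h3 : stabilizer G b ⊓ A ≤ N := fun x hx => ⟨hx.2, fun g _ e => by rwa [hx.1]⟩
  rw [h1, ncard_orbit, ncard_orbit, ← Subgroup.inf_relIndex_right _ A, ← Subgroup.relIndex_mul_relIndex _ N A h3 h2,
    ← Subgroup.inf_relIndex_right _ N, le_antisymm (inf_le_inf_left _ h2) (le_inf inf_le_left h3)]
  exact dvd_mul_right _ _

variable [Finite Ω] {p : ℕ} [hp : Fact p.Prime]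

theorem fix_of_pow {g : G} {k : ℕ} (hg : g ^ p ^ k = 1) {T : Set Ω} (h : ∀ x ∈ T, g • x ∈ T) (hT : T.ncard < p) {x : Ω}
    (hx : x ∈ T) : g • x = x := by
  have h1 : orbit (Subgroup.zpowers g) x ⊆ T := by
    rintro _ ⟨⟨_, hy⟩, rfl⟩
    obtain ⟨n, rfl⟩ := mem_powers_iff_mem_zpowers.mpr hy
    show g ^ n • x ∈ T
    clear hy
    induction n with
    | zero => simpa
    | succ n ih => rw [pow_succ', mul_smul]; exact h _ ih
  obtain ⟨n, hn⟩ := (IsPGroup.of_card_dvd_pow (p := p) (G := Subgroup.zpowers g) (n := k)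
    (by rw [Nat.card_zpowers]; exact orderOf_dvd_of_pow_eq_one hg)).card_orbit x
  have h2 := (Set.ncard_le_ncard h1).trans_lt hT
  rw [← Nat.card_coe_set_eq, hn] at h2
  obtain rfl : n = 0 := by_contra fun e => h2.not_ge (Nat.le_self_pow e p)
  exact (Set.ncard_le_one_iff_subsingleton.mp hn.le) (mem_orbit_sub.mpr ⟨g, Subgroup.mem_zpowers g, rfl⟩) (mem_orbit_self x)

variable (G Ω p) in
/-- An invariant choice of a system of blocks of size `p` for every point stabiliser. -/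
structure Sys where
  /-- the block of the stabiliser of the first point containing the second point -/
  B : Ω → Ω → Set Ω
  self : ∀ {α β}, α ≠ β → β ∈ B α β
  ne : ∀ {α β γ}, γ ∈ B α β → α ≠ γ
  eq : ∀ {α β γ}, γ ∈ B α β → B α γ = B α β
  card : ∀ {α β}, α ≠ β → (B α β).ncard = p
  smul : ∀ (g : G) {α β γ}, γ ∈ B α β → g • γ ∈ B (g • α) (g • β)

variable (h2 : ∀ {a b c d : Ω}, a ≠ b → c ≠ d → ∃ g : G, g • a = c ∧ g • b = d)

omit [Finite G] hp in
include h2 in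
theorem exists_sys {a b : Ω} (hab : a ≠ b) {T : Set Ω} (ha : a ∉ T) (hb : b ∈ T) (hT : T.ncard = p)
    (h : ∀ g : G, g • a = a → g • b ∈ T → ∀ x ∈ T, g • x ∈ T) : ∃ S : Sys G Ω p, S.B a b = T := by
  let B : Ω → Ω → Set Ω := fun α β => {γ | ∃ g : G, g • a = α ∧ g • b = β ∧ g⁻¹ • γ ∈ T}
  have h1 : ∀ g : G, B (g • a) (g • b) = g • T := fun g => Set.ext fun γ => ⟨fun ⟨g', e, e', h1⟩ => by
    simpa [Set.mem_smul_set_iff_inv_smul_mem, mul_smul] using
      h (g⁻¹ * g') (by simp [mul_smul, e]) (by simpa [mul_smul, e']) _ h1,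
    fun h1 => ⟨g, rfl, rfl, Set.mem_smul_set_iff_inv_smul_mem.mp h1⟩⟩
  have h3 : ∀ {α β γ}, γ ∈ B α β → α ≠ γ := by
    rintro _ _ _ ⟨g, rfl, rfl, h⟩ rfl
    exact ha (by simpa using h)
  refine ⟨⟨B, fun h => ?_, h3, fun h4 => ?_, fun h => ?_, fun g _ _ _ ⟨g', e, e', h⟩ =>
    ⟨g * g', by simp [mul_smul, e], by simp [mul_smul, e'], by simpa [mul_smul]⟩⟩, by simpa using h1 1⟩
  · obtain ⟨g, rfl, rfl⟩ := h2 hab h
    exact ⟨g, rfl, rfl, by simpa⟩
  · obtain ⟨g', e, rfl⟩ := h2 hab (h3 h4)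
    obtain ⟨g, rfl, rfl, h4⟩ := h4
    rw [h1, ← e, h1]
    refine Set.eq_of_subset_of_ncard_le ?_ (by simp)
    rintro _ ⟨x, hx, rfl⟩
    simpa [Set.mem_smul_set_iff_inv_smul_mem, mul_smul] using
      h (g⁻¹ * g') (by simp [mul_smul, e]) (by simpa [mul_smul]) _ hx
  · obtain ⟨g, rfl, rfl⟩ := h2 hab h
    simp [h1, hT]

namespace Sys
omit [Finite G]
variable (S : Sys G Ω p)

omit [Finite Ω] hp in
theorem B_smul (g : G) (α β : Ω) : S.B (g • α) (g • β) = g • S.B α β := Set.ext fun γ => by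
  rw [Set.mem_smul_set_iff_inv_smul_mem]
  exact ⟨fun h => by simpa using S.smul g⁻¹ h, fun h => by simpa using S.smul g h⟩

omit [Finite Ω] hp in
theorem smul' {g : G} {a x y : Ω} (hg : g • a = a) (h : y ∈ S.B a x) : g • y ∈ S.B a (g • x) := by
  simpa [hg] using S.smul g h

omit hp in
theorem ncard_insert {α β : Ω} (h : α ≠ β) : (insert α (S.B α β)).ncard = p + 1 := by
  rw [Set.ncard_insert_of_notMem fun h => S.ne h rfl, S.card h]

variable {a : Ω} {F : Set Ω} (h1 : ∀ x ∈ F, a ≠ x) (h3 : ∀ x ∈ F, ∀ y ∈ F, y ∈ S.B a x → y = x) (hΩ : Nat.card Ω = p ^ 2 + 1)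
include h1 h3 hΩ

omit hp in
theorem ncard_union : (⋃ x ∈ F, S.B a x).ncard = F.ncard * p ∧ (⋃ x ∈ F, S.B a x) ⊆ {a}ᶜ ∧ ({a}ᶜ : Set Ω).ncard = p * p := by
  refine ⟨?_, Set.iUnion₂_subset fun x _ y hy => (S.ne hy).symm, by
    rw [Set.ncard_compl, hΩ, sq]; simp⟩
  rw [F.toFinite.ncard_biUnion (fun _ _ => Set.toFinite _) fun x hx y hy e => Set.disjoint_left.mpr fun z h h' =>
    e (h3 y hy x hx (S.eq h' ▸ (S.eq h).symm ▸ S.self (h1 x hx))), finsum_mem_congr rfl fun x hx => S.card (h1 x hx),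
    finsum_mem_eq_finite_toFinset_sum _ F.toFinite, Finset.sum_const, Set.ncard_eq_toFinset_card _ F.toFinite]
  rfl

theorem ncard_le : F.ncard ≤ p := by
  obtain ⟨a1, a2, a3⟩ := S.ncard_union h1 h3 hΩ
  exact Nat.le_of_mul_le_mul_right (a1 ▸ a3 ▸ Set.ncard_le_ncard a2) hp.out.pos

theorem ncard_eq_iff : F.ncard = p ↔ ∀ y, a ≠ y → ∃ x ∈ F, y ∈ S.B a x := by
  obtain ⟨a1, a2, a3⟩ := S.ncard_union h1 h3 hΩ
  refine ⟨fun h y hy => by simpa using (Set.eq_of_subset_of_ncard_le a2 (by rw [a1, a3, h])).ge hy.symm, fun h => ?_⟩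
  rw [a2.antisymm fun y hy => by simpa using h y (Ne.symm hy), a3] at a1
  exact (Nat.eq_of_mul_eq_mul_right hp.out.pos a1).symm

omit h1 h3

theorem no_steiner (h : ∀ {α β}, α ≠ β → insert α (S.B α β) = insert β (S.B β α)) {b : Ω} (hab : a ≠ b) : False := by
  have h1 : ∀ {α β x y}, α ≠ β → x ∈ insert α (S.B α β) → y ∈ insert α (S.B α β) → x ≠ y →
      insert x (S.B x y) = insert α (S.B α β) := fun {α β x y} h0 hx hy e => by
    rcases hx with rfl | hx
    · rw [S.eq (hy.resolve_left e.symm)]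
    · rw [← S.eq hx, h (S.ne hx)] at hy ⊢
      rw [S.eq (hy.resolve_left e.symm)]
  obtain ⟨c, hc⟩ : (insert a (S.B a b))ᶜ.Nonempty := Set.nonempty_of_ncard_ne_zero (by
    have := hp.out.one_lt
    rw [Set.ncard_compl, hΩ, S.ncard_insert hab, Nat.sub_ne_zero_iff_lt]; nlinarith)
  have h4 : ∀ x ∈ insert a (S.B a b), c ≠ x := fun x hx e => hc (e ▸ hx)
  have := S.ncard_le h4 (fun x hx y hy e => by_contra fun e' => hc (by
    rw [← h1 hab hy hx e', h1 (h4 x hx) (Or.inr e) (Or.inr (S.self (h4 x hx))) e']; exact Or.inl rfl)) hΩ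
  simp [S.ncard_insert hab] at this

include h2 in
theorem no_pair (C : Sys G Ω p) {b : Ω} (hab : a ≠ b) (h : insert a (S.B a b) ⊆ insert b (C.B b a)) : False := by
  have h1 : ∀ {α β}, α ≠ β → insert α (S.B α β) = insert β (C.B β α) := fun e => by
    obtain ⟨g, rfl, rfl⟩ := h2 hab e
    rw [B_smul, B_smul, ← Set.smul_set_insert, ← Set.smul_set_insert,
      Set.eq_of_subset_of_ncard_le h (by rw [S.ncard_insert hab, C.ncard_insert hab.symm])]
  obtain ⟨c, h3, h4⟩ := Set.exists_ne_of_one_lt_ncard (s := C.B a b) (by rw [C.card hab]; exact hp.out.one_lt) b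
  have h5 := h1 (C.ne h3).symm
  rw [C.eq h3] at h5
  have h6 := h1 h4.symm
  rw [S.eq (((h1 hab.symm).ge (Or.inr h3)).resolve_left h4), h1 hab.symm, ← h5,
    ← S.eq ((h5.ge (Or.inr (C.self hab))).resolve_left h4.symm)] at h6
  have h7 : S.B c b = C.B c b := by
    rw [← Set.insert_sdiff_self_of_notMem fun h => S.ne (β := b) h rfl, h6,
      Set.insert_sdiff_self_of_notMem fun h => C.ne h rfl]
  refine S.no_steiner hΩ (fun e => ?_) hab
  obtain ⟨g, rfl, rfl⟩ := h2 h4.symm e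
  rw [h1 e, B_smul, B_smul, h7]

end Sys

end Cfsg.Agent.Perm
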