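import Cfsg.Agent.Lib.Perm.Psq1
import Cfsg.Agent.Lib.Perm.PrimeDeg

/-! Doubly transitive groups of degree `p² + 1` are doubly primitive. -/

set_option autoImplicit false
set_option linter.unusedSectionVars false

namespace Cfsg.Agent.Perm
open MulAction Pointwise

variable {G Ω : Type*} [Group G] [MulAction G Ω] [Finite G] [Finite Ω] [FaithfulSMul G Ω] {p : ℕ} [hp : Fact p.Prime]

theorem eq_one_of_fix {a : Ω} {g : G} (ha : g • a = a) (h : ∀ y, a ≠ y → g • y = y) : g = 1 :=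
  eq_of_smul_eq_smul fun y : Ω => by
    by_cases e : a = y
    exacts [by simpa [← e], by simpa using h y e]

theorem not_dvd {H D : Subgroup G} (hH : ¬ p ∣ Nat.card H) (h : D ≤ H) {y : Ω} : (orbit D y).ncard ≠ p := fun e =>
  hH (((Dvd.intro_left _ (e ▸ (card_eq_mul D y).symm))).trans (Subgroup.card_dvd_of_le h))

/-- Coordinates given by a regular Sylow subgroup of the point stabiliser. -/
structure Ctx (S : Sys G Ω p) (a : Ω) where
  /-- the regular subgroup -/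
  P : Subgroup G
  /-- the stabiliser of the blocks in the regular subgroup -/
  X : ZMod p → G
  fix : ∀ x ∈ P, x • a = a
  comm : ∀ x ∈ P, ∀ y ∈ P, x * y = y * x
  trans : ∀ {y w}, a ≠ y → a ≠ w → ∃ x ∈ P, x • y = w
  free : ∀ x ∈ P, ∀ {y}, a ≠ y → x • y = y → x = 1
  X_mem : ∀ i, X i ∈ P
  X_add : ∀ i j, X (i + j) = X i * X j
  X_inj : Function.Injective X
  row : ∀ {y w}, a ≠ y → (w ∈ S.B a y ↔ ∃ i, X i • y = w)
  pow : ∀ z ∈ P, ∃ r, X r = z ^ p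
  ndvd : ∀ {y}, a ≠ y → ¬ p ∣ Nat.card ↥(stabilizer G a ⊓ stabilizer G y)

variable (h2 : ∀ {a b c d : Ω}, a ≠ b → c ≠ d → ∃ g : G, g • a = c ∧ g • b = d) (hΩ : Nat.card Ω = p ^ 2 + 1)
  {S : Sys G Ω p} {a b : Ω} (hab : a ≠ b)
include h2 hΩ hab

theorem orbit_stab : orbit (stabilizer G a) b = {a}ᶜ ∧ ({a}ᶜ : Set Ω).ncard = p ^ 2 :=
  ⟨Set.ext fun y => ⟨by rintro ⟨g, rfl⟩ e; exact hab ((smul_left_cancel g.1 (e.trans g.2.symm)).symm),
    fun h => mem_orbit_sub.mpr (h2 hab (Ne.symm h))⟩, by rw [Set.ncard_compl, hΩ]; simp⟩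

theorem card_stab : Nat.card (stabilizer G a) = Nat.card ↥(stabilizer G a ⊓ stabilizer G b) * p ^ 2 := by
  rw [card_eq_mul _ b, (orbit_stab h2 hΩ hab).1, (orbit_stab h2 hΩ hab).2]

theorem eq_or_eq {F : Set Ω} (h1 : S.B a b ⊆ F) (h3 : F ⊆ {a}ᶜ) (h : F.ncard ∣ p ^ 2) : F = S.B a b ∨ F = {a}ᶜ := by
  obtain ⟨k, h4, h5⟩ := (Nat.dvd_prime_pow hp.out).mp h
  have h6 := Set.ncard_le_ncard h1
  rw [S.card hab, h5] at h6
  interval_cases k
  · exact absurd hp.out.one_lt (by simpa using h6)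
  · exact Or.inl (Set.eq_of_subset_of_ncard_le h1 (by rw [S.card hab, h5, pow_one])).symm
  · exact Or.inr (Set.eq_of_subset_of_ncard_le h3 (by rw [(orbit_stab h2 hΩ hab).2, h5]))

theorem exists_regular (S : Sys G Ω p) : ∃ P ≤ stabilizer G a, orbit P b = {a}ᶜ ∧ P ⊓ stabilizer G b = ⊥ ∧
    ¬ p ∣ Nat.card ↥(stabilizer G a ⊓ stabilizer G b) := by
  obtain ⟨h1, h3⟩ := orbit_stab h2 hΩ hab
  let Q : Sylow p (stabilizer G a) := default
  set P := Q.1.map (stabilizer G a).subtype with hP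
  have h4 : P ≤ stabilizer G a := Subgroup.map_subtype_le _
  have h5 : ¬ p ∣ P.relIndex (stabilizer G a) := by
    rw [Subgroup.relIndex, hP, Subgroup.subgroupOf, Subgroup.comap_map_eq_self_of_injective (Subgroup.subtype_injective _)]
    exact Q.not_dvd_index
  have h6 := Subgroup.relIndex_mul_relIndex (P ⊓ stabilizer G b) _ _ inf_le_left h4
  rw [← Subgroup.relIndex_mul_relIndex _ _ _ (inf_le_inf_right _ h4) inf_le_left, Subgroup.inf_relIndex_left,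
    Subgroup.inf_relIndex_left, ← ncard_orbit, ← ncard_orbit, h1, h3] at h6
  have h7 : orbit P b ⊆ {a}ᶜ := h1 ▸ fun y hy => let ⟨g, h, e⟩ := mem_orbit_sub.mp hy; mem_orbit_sub.mpr ⟨g, h4 h, e⟩
  have h8 : orbit P b = {a}ᶜ := Set.eq_of_subset_of_ncard_le h7 (h3 ▸ Nat.le_of_dvd
    (Set.Nonempty.ncard_pos (Set.toFinite _) ⟨b, mem_orbit_self b⟩) (((hp.out.coprime_iff_not_dvd.mpr h5).pow_left 2).dvd_of_dvd_mul_right
      (h6 ▸ dvd_mul_left _ _)))
  suffices h : P ⊓ stabilizer G b = ⊥ from ⟨P, h4, h8, h, by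
    rw [h8, h3, mul_comm, mul_left_inj' (pow_ne_zero _ hp.out.ne_zero), h, Subgroup.relIndex_bot_left] at h6
    rwa [← h6]⟩
  have h9 : ∀ g ∈ P, ∀ {α β}, α ≠ β → g • α = α → g • β = β → ∀ y ∈ S.B α β, g • y = y := fun g hg α β h e e' y hy => by
    obtain ⟨k, hk⟩ := Q.isPGroup'.map (stabilizer G a).subtype ⟨g, hg⟩
    by_cases e'' : y = β
    · rwa [e'']
    refine fix_of_pow (congrArg Subtype.val hk) (T := S.B α β \ {β}) (fun x hx => ⟨by simpa [e, e'] using S.smul g hx.1,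
      fun h => hx.2 (smul_left_cancel g (h.trans e'.symm))⟩) ?_ ⟨hy, e''⟩
    rw [Set.ncard_sdiff_singleton_of_mem (S.self h), S.card h]
    exact Nat.sub_one_lt hp.out.ne_zero
  obtain e | e := eq_or_eq h2 hΩ hab (S := S) (F := {y ∈ orbit P b | ∀ g ∈ P, g • b = b → g • y = y})
    (fun y hy => ⟨h8 ▸ (S.ne hy).symm, fun g hg e => h9 g hg hab (h4 hg) e y hy⟩) (fun _ h => h7 h.1)
    (h3 ▸ h8 ▸ ncard_fix_dvd P b)
  · refine (S.no_pair h2 hΩ S hab.symm fun y hy => or_iff_not_imp_left.mpr fun h => e.le ⟨h8 ▸ h, fun g hg e => ?_⟩).elim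
    rcases hy with rfl | hy
    exacts [e, h9 g hg hab.symm e (h4 hg) y hy]
  · exact eq_bot_iff.mpr fun g hg => eq_one_of_fix (h4 hg.1) fun y hy => (e.ge hy.symm).2 g hg.1 hg.2

theorem exists_ctx (S : Sys G Ω p) : Nonempty (Ctx S a) := by
  obtain ⟨P, h1, h3, h4, h5⟩ := exists_regular h2 hΩ hab S
  have h6 : Nat.card P = p ^ 2 := by rw [card_eq_mul P b, h4, h3, (orbit_stab h2 hΩ hab).2]; simp
  have h7 : ∀ x ∈ P, ∀ y ∈ P, x * y = y * x := fun x hx y hy =>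
    congrArg Subtype.val ((IsPGroup.isMulCommutative_of_card_eq_prime_sq h6).is_comm.comm ⟨x, hx⟩ ⟨y, hy⟩)
  have h8 : ∀ {y}, a ≠ y → ∃ x ∈ P, x • b = y := fun h => mem_orbit_sub.mp (h3.ge h.symm)
  have h9 : ∀ x ∈ P, x • b = b → x = 1 := fun x hx e => h4.le (show x ∈ _ ⊓ _ from ⟨hx, e⟩)
  let N := sub (G := G)
    { carrier := {x ∈ P | x • b ∈ S.B a b}
      one_mem' := ⟨one_mem P, by simpa using S.self hab⟩
      mul_mem' := fun {x y} hx hy => ⟨mul_mem hx.1 hy.1, by rw [mul_smul, ← S.eq hx.2]; exact S.smul' (h1 hx.1) hy.2⟩ }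
  have b0 : N ≤ P := fun _ h => h.1
  have b1 : Nat.card N = p := by
    rw [card_eq_mul N b, eq_bot_iff.mpr ((inf_le_inf_right _ b0).trans h4.le), show orbit N b = S.B a b from
      Set.ext fun y => mem_orbit_sub.trans ⟨fun ⟨x, h, e⟩ => e ▸ h.2, fun h =>
        let ⟨x, hx, e⟩ := h8 (S.ne h); ⟨x, ⟨hx, e ▸ h⟩, e⟩⟩, S.card hab]; simp
  let e := mulEquivOfPrimeCardEq (G := Multiplicative (ZMod p)) (by simp) b1
  have b2 : ∀ x ∈ N, ∃ i, (e (.ofAdd i) : G) = x := fun x hx => ⟨(e.symm ⟨x, hx⟩).toAdd, by simp⟩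
  refine ⟨⟨P, fun i => e (.ofAdd i), h1, h7, fun hy hw => ?_, fun x hx y hy e => ?_, fun i => (e _).2.1, by simp,
    Subtype.val_injective.comp (e.injective.comp Multiplicative.ofAdd.injective), fun hy => ?_, fun z hz => b2 _ ?_, fun hy => ?_⟩⟩
  · obtain ⟨x, hx, rfl⟩ := h8 hy
    obtain ⟨y, hy, rfl⟩ := h8 hw
    exact ⟨_, mul_mem hy (inv_mem hx), by simp [mul_smul]⟩
  · obtain ⟨z, hz, rfl⟩ := h8 hy
    exact h9 x hx (by rwa [← mul_smul, h7 x hx z hz, mul_smul, smul_left_cancel_iff] at e)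
  · obtain ⟨z, hz, rfl⟩ := h8 hy
    refine ⟨fun h => ?_, ?_⟩
    · obtain ⟨x, hx, rfl⟩ := h8 (S.ne h)
      obtain ⟨i, hi⟩ := b2 (x * z⁻¹) ⟨mul_mem hx (inv_mem hz), by
        simpa [h7 x hx _ (inv_mem hz), mul_smul] using S.smul' (inv_mem (h1 hz)) h⟩
      exact ⟨i, by simp [hi, mul_smul]⟩
    · rintro ⟨i, rfl⟩
      rw [← mul_smul, h7 _ (e _).2.1 z hz, mul_smul]
      exact S.smul' (h1 hz) (e _).2.2
  · have : (N.subgroupOf P).Normal := ⟨fun x hx y => by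
      rwa [show y * x = x * y from Subtype.ext (h7 _ y.2 _ x.2), mul_inv_cancel_right]⟩
    have b3 := (N.subgroupOf P).card_mul_index
    rw [Nat.card_congr (Subgroup.subgroupOfEquivOfLe b0).toEquiv, b1, h6, sq, mul_right_inj' hp.out.ne_zero] at b3
    exact b3 ▸ (N.subgroupOf P).pow_index_mem ⟨z, hz⟩
  · rwa [mul_right_cancel₀ (pow_ne_zero 2 hp.out.ne_zero) ((card_stab h2 hΩ hy).symm.trans (card_stab h2 hΩ hab))]

omit h2 hΩ hab

variable (S a) in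
/-- The kernel of the action of a point stabiliser on its blocks. -/
def Ker : Subgroup G := sub
  { carrier := {g | g • a = a ∧ ∀ y, a ≠ y → g • y ∈ S.B a y}
    one_mem' := ⟨one_smul _ _, fun y hy => by simpa using S.self hy⟩
    mul_mem' := fun {g g'} hg hg' => ⟨by rw [mul_smul, hg'.1, hg.1], fun y hy => by
      rw [mul_smul, ← S.eq (hg'.2 y hy)]; exact hg.2 _ (S.ne (hg'.2 y hy))⟩ }

theorem ne_smul {g : G} (hg : g • a = a) {y : Ω} (hy : a ≠ y) : a ≠ g • y := fun e =>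
  hy (smul_left_cancel g (hg.trans e))

theorem conj_mem_Ker {g k : G} (hg : g • a = a) (hk : k ∈ Ker S a) : g⁻¹ * k * g ∈ Ker S a :=
  ⟨by simp [mul_smul, hg, hk.1, inv_smul_eq_iff], fun y hy => by
    simpa [mul_smul] using S.smul' (inv_smul_eq_iff.mpr hg.symm) (hk.2 _ (ne_smul hg hy))⟩

theorem Ker_smul {k : G} (hk : k ∈ Ker S a) {y w : Ω} (hw : w ∈ S.B a y) : k • w ∈ S.B a y :=
  S.eq hw ▸ hk.2 w (S.ne hw)

namespace Ctx
variable (c : Ctx S a)

theorem X_zero : c.X 0 = 1 := by simpa using c.X_add 0 0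

theorem X_neg (i : ZMod p) : c.X (-i) = (c.X i)⁻¹ := eq_inv_of_mul_eq_one_left (by rw [← c.X_add, neg_add_cancel, c.X_zero])

theorem X_ker (i : ZMod p) : c.X i ∈ Ker S a := ⟨c.fix _ (c.X_mem i), fun _ hy => (c.row hy).mpr ⟨i, rfl⟩⟩

theorem smul_inj {y : Ω} (hy : a ≠ y) {i j : ZMod p} (h : c.X i • y = c.X j • y) : i = j :=
  c.X_inj (inv_mul_eq_one.mp (c.free _ (mul_mem (inv_mem (c.X_mem j)) (c.X_mem i)) hy
    (by rw [mul_smul, h, inv_smul_smul]))).symm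

theorem X_ind {q : ZMod p → Prop} (h0 : q 0) {i : ZMod p} (hi : i ≠ 0) (h : ∀ j, q j → q (i + j)) (j : ZMod p) : q j := by
  have : ∀ n : ℕ, q (n * i) := fun n => by
    induction n with
    | zero => simpa
    | succ n ih => simpa [add_mul, add_comm] using h _ ih
  simpa [hi] using this (j / i).val

include c

theorem orbit_ker {y : Ω} (hy : a ≠ y) : orbit (Ker S a) y = S.B a y := Set.ext fun _ => mem_orbit_sub.trans
  ⟨fun ⟨_, h, e⟩ => e ▸ h.2 y hy, fun h => let ⟨i, e⟩ := (c.row hy).mp h; ⟨_, c.X_ker i, e⟩⟩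

theorem card_ker {y : Ω} (hy : a ≠ y) : Nat.card (Ker S a) = Nat.card ↥(Ker S a ⊓ stabilizer G y) * p := by
  rw [card_eq_mul _ y, c.orbit_ker hy, S.card hy]

theorem faithful {k : G} (hk : k ∈ Ker S a) {y : Ω} (hy : a ≠ y) (h : ∀ w ∈ S.B a y, k • w = w) : k = 1 := by
  let D := sub (G := G)
    { carrier := {g ∈ Ker S a | ∀ w ∈ S.B a y, g • w = w}
      one_mem' := ⟨one_mem _, by simp⟩
      mul_mem' := fun hg hg' => ⟨mul_mem hg.1 hg'.1, fun w hw => by rw [mul_smul, hg'.2 w hw, hg.2 w hw]⟩ }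
  refine eq_one_of_fix hk.1 fun w hw => by_contra fun e => not_dvd (c.ndvd hy) (D := D)
    (fun g hg => ⟨hg.1.1, hg.2 y (S.self hy)⟩) (y := w) ?_
  obtain ⟨i, hi⟩ := (c.row hw).mp (hk.2 w hw)
  rw [← S.card hw]
  refine congrArg _ (Set.ext fun x => mem_orbit_sub.trans ⟨fun ⟨_, h, e⟩ => e ▸ h.1.2 w hw, fun hx => ?_⟩)
  obtain ⟨j, rfl⟩ := (c.row hw).mp hx
  refine X_ind (q := fun j => ∃ g ∈ D, g • w = c.X j • w) ⟨1, one_mem _, by rw [c.X_zero]⟩ (i := i)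
    (by rintro rfl; exact e (by simpa [c.X_zero] using hi.symm)) (fun j ⟨g, hg, e⟩ => ?_) j
  refine ⟨(c.X (-i))⁻¹ * g * c.X (-i) * k, mul_mem ⟨conj_mem_Ker (c.X_ker _).1 hg.1, fun x hx => ?_⟩ ⟨hk, h⟩, ?_⟩
  · simp [mul_smul, hg.2 _ (Ker_smul (c.X_ker _) hx)]
  · simp [mul_smul, ← hi, c.X_neg, c.X_add, e]

theorem uniq {y w w' : Ω} (hab : a ≠ b) (hL : ∃ l ∈ Ker S a, l • b = b ∧ l ≠ 1) (hw : w ∈ S.B a y) (hw' : w' ∈ S.B a y)
    (h : ∀ l ∈ Ker S a, l • b = b → l • w = w) (h' : ∀ l ∈ Ker S a, l • b = b → l • w' = w') : w = w' := by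
  have h1 := S.ne hw
  have h3 : Ker S a ⊓ stabilizer G b = Ker S a ⊓ stabilizer G w :=
    Subgroup.eq_of_le_of_card_ge (fun l hl => ⟨hl.1, h l hl.1 hl.2⟩) (Nat.le_of_mul_le_mul_right
      ((c.card_ker h1).symm.trans (c.card_ker hab)).le hp.out.pos)
  have h4 := ncard_fix_dvd (Ker S a) w
  rw [c.orbit_ker h1, S.card h1, Nat.dvd_prime hp.out] at h4
  rcases h4 with h4 | h4
  · exact Set.ncard_le_one_iff_subsingleton.mp h4.le ⟨S.self h1, fun _ _ e => e⟩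
      ⟨S.eq hw ▸ hw', fun l hl e => h' l hl (h3.ge ⟨hl, e⟩).2⟩
  · obtain ⟨l, h5, h6, h7⟩ := hL
    have := Set.eq_of_subset_of_ncard_le (Set.sep_subset _ _) ((S.card h1).trans h4.symm).le
    exact absurd (c.faithful h5 h1 fun x hx => (this.ge hx).2 l h5 (h l h5 h6)) h7

theorem exists_fix_aff (hab : a ≠ b) (h : ∀ l ∈ Ker S a, l • b = b → ∃ m, ∀ i, l • c.X i • b = c.X (m * i) • b) {y : Ω}
    (hy : a ≠ y) : ∃ w ∈ S.B a y, ∀ l ∈ Ker S a, l • b = b → l • w = w := by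
  by_cases hL : ∃ k ∈ Ker S a, k • b = b ∧ k ≠ 1
  swap
  · push Not at hL
    exact ⟨y, S.self hy, fun l h1 h2 => by simp [hL l h1 h2]⟩
  obtain ⟨k, h1, h2, h3⟩ := hL
  have key : ∀ g ∈ Ker S a, ∀ g' ∈ Ker S a, (∀ i, g • c.X i • b = g' • c.X i • b) → g = g' := fun g hg g' hg' e =>
    inv_mul_eq_one.mp (c.faithful (mul_mem (inv_mem hg) hg') hab fun w hw => by
      obtain ⟨i, rfl⟩ := (c.row hab).mp hw
      rw [mul_smul, ← e, inv_smul_smul])
  obtain ⟨m, hm⟩ := h k h1 h2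
  have h4 : 1 - m ≠ 0 := sub_ne_zero.mpr (by rintro rfl; exact h3 (key _ h1 _ (one_mem _) (by simpa using hm)))
  have h5 : ∀ i, k * c.X i = c.X (m * i) * k := fun i => key _ (mul_mem h1 (c.X_ker _)) _ (mul_mem (c.X_ker _) h1) fun j => by
    rw [mul_smul, mul_smul, smul_smul (c.X i), ← c.X_add, hm, hm, mul_add, c.X_add, mul_smul]
  obtain ⟨d, hd⟩ := (c.row hy).mp (h1.2 y hy)
  have h6 : ∀ i, k • c.X i • y = c.X i • y ↔ i = d / (1 - m) := fun i => by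
    rw [smul_smul, h5, mul_smul, ← hd, smul_smul, ← c.X_add, eq_div_iff h4]
    exact ⟨fun e => by linear_combination -c.smul_inj hy e, fun e => by rw [← e]; congr 2; ring⟩
  refine ⟨_, (c.row hy).mpr ⟨d / (1 - m), rfl⟩, fun l h7 h8 => ?_⟩
  obtain ⟨i, hi⟩ := (c.row hy).mp (Ker_smul h7 ((c.row hy).mpr ⟨d / (1 - m), rfl⟩))
  obtain ⟨m', hm'⟩ := h l h7 h8
  rw [← hi, (h6 i).mp (by rw [hi, smul_smul k, key _ (mul_mem h1 h7) _ (mul_mem h7 h1) fun j => by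
    simp only [mul_smul, hm, hm', mul_left_comm m], mul_smul, (h6 _).mpr rfl])]

theorem exists_fix_two (hab : a ≠ b) (h : ∀ i i', i ≠ 0 → i' ≠ 0 → ∃ l ∈ Ker S a, l • b = b ∧ l • c.X i • b = c.X i' • b)
    {y : Ω} (hy : a ≠ y) : ∃ w ∈ S.B a y, ∀ l ∈ Ker S a, l • b = b → l • w = w := by
  classical
  obtain ⟨z, hz, rfl⟩ := c.trans hab hy
  obtain ⟨r, hr⟩ := c.pow z hz
  set T := Finset.univ.filter fun i => ∃ l ∈ Ker S a, l • b = b ∧ l • z • b = c.X i • z • b with hT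
  have h1 : ∀ l ∈ Ker S a, l • b = b → ∀ i i', l • c.X i • z • b = c.X i' • z • b → (i ∈ T ↔ i' ∈ T) := fun l h1 h2 i i' e => by
    simp only [hT, Finset.mem_filter, Finset.mem_univ, true_and]
    exact ⟨fun ⟨k, a1, a2, a3⟩ => ⟨l * k, mul_mem h1 a1, by simp [mul_smul, a2, h2], by rw [mul_smul, a3, e]⟩,
      fun ⟨k, a1, a2, a3⟩ => ⟨l⁻¹ * k, mul_mem (inv_mem h1) a1, by simp [mul_smul, a2, inv_smul_eq_iff, h2],
        by rw [mul_smul, a3, ← e, inv_smul_smul]⟩⟩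
  have h3 : 0 ∈ T := by simpa [hT, c.X_zero] using ⟨1, one_mem _, by simp⟩
  have h4 : T ≠ Finset.univ := fun e => not_dvd (c.ndvd hab) (D := Ker S a ⊓ stabilizer G b)
    (fun l hl => ⟨hl.1.1, hl.2⟩) (y := z • b) (by
      refine (congrArg _ (Set.ext fun x => mem_orbit_sub.trans ⟨fun ⟨_, h, e⟩ => e ▸ h.1.2 _ hy, fun hx => ?_⟩)).trans
        (S.card hy)
      obtain ⟨j, rfl⟩ := (c.row hy).mp hx
      obtain ⟨l, a1, a2, a3⟩ := (Finset.mem_filter.mp (e.ge (Finset.mem_univ j))).2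
      exact ⟨l, ⟨a1, a2⟩, a3⟩)
  have h5 : ∀ n i, z ^ n * c.X i = c.X i * z ^ n := fun n i => c.comm _ (pow_mem hz n) _ (c.X_mem i)
  obtain ⟨u, hu⟩ := exists_mem_iff ⟨0, h3⟩ h4 (r := r) fun R _ i i' a1 a2 => coeff_pow_eq R
    (ρ := fun n i i' => ∃ l ∈ Ker S a, l • b = b ∧ l • c.X i • z ^ n • b = c.X i' • z ^ n • b)
    (fun i i' ⟨l, _, a2, a3⟩ => ⟨by rintro rfl; exact c.smul_inj hab (by simpa [c.X_zero, a2] using a3.symm), by
      rintro rfl; exact c.smul_inj hab (smul_left_cancel l (by simpa [c.X_zero, a2] using a3))⟩)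
    (fun n i i' ⟨l, a1, a2, a3⟩ => by
      have b1 := ne_smul (c.fix _ (pow_mem hz n)) hab
      choose σ hσ using fun j => (c.row b1).mp (Ker_smul a1 ((c.row b1).mpr ⟨j, rfl⟩))
      refine ⟨.ofBijective σ (Finite.injective_iff_bijective.mp fun j j' e => c.smul_inj b1
        (smul_left_cancel l (by rw [← hσ, ← hσ, e]))), fun j => ⟨⟨l, a1, a2, (hσ j).symm⟩,
          h1 ((z ^ n)⁻¹ * ((c.X (σ j))⁻¹ * l * c.X j) * z ^ n) (conj_mem_Ker (c.fix _ (pow_mem hz n))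
            (mul_mem (mul_mem (inv_mem (c.X_ker _)) a1) (c.X_ker _))) (by simp [mul_smul, ← hσ]) _ _ ?_⟩⟩
      simp only [mul_smul, inv_smul_eq_iff, Equiv.ofBijective_apply]
      simp only [smul_smul (z ^ n) (c.X _), h5, mul_smul, smul_smul (z ^ n) z, ← pow_succ, smul_smul (c.X _) (c.X _),
        ← c.X_add, add_sub_cancel, a3])
    p i i' (by simpa [← hr, smul_smul (c.X _) (c.X _), ← c.X_add, add_comm r] using h _ _ a1 a2)
  refine ⟨_, (c.row hy).mpr ⟨u, rfl⟩, fun l a1 a2 => ?_⟩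
  obtain ⟨i, hi⟩ := (c.row hy).mp (Ker_smul a1 ((c.row hy).mpr ⟨u, rfl⟩))
  by_cases e : i = u
  · rw [← hi, e]
  have h6 := h1 l a1 a2 _ _ hi.symm
  have h7 : i ∈ T := by
    by_cases e' : 0 = u
    exacts [h6.mp (e' ▸ h3), hu 0 e' i e h3]
  exact absurd (Finset.eq_univ_of_forall fun j => by
    by_cases e' : j = u
    exacts [e' ▸ h6.mpr h7, hu i e j e' h7]) h4

theorem exists_fix (hab : a ≠ b) {y : Ω} (hy : a ≠ y) : ∃ w ∈ S.B a y, ∀ l ∈ Ker S a, l • b = b → l • w = w := by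
  classical
  by_cases h : ∀ i i', i ≠ 0 → i' ≠ 0 → ∃ l ∈ Ker S a, l • b = b ∧ l • c.X i • b = c.X i' • b
  · exact c.exists_fix_two hab h hy
  push Not at h
  obtain ⟨i, i', h1, h2, h⟩ := h
  refine c.exists_fix_aff hab (fun l h3 h4 => ?_) hy
  choose σ hσ using fun j => (c.row hab).mp (Ker_smul h3 ((c.row hab).mpr ⟨j, rfl⟩))
  obtain ⟨m, d, h5⟩ := affine_of_diff
    (U := Finset.univ.filter fun j => ∃ l ∈ Ker S a, l • b = b ∧ l • c.X i • b = c.X j • b)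
    (by simpa using fun k _ a2 a3 => h1 (c.smul_inj hab (smul_left_cancel k (by simpa [c.X_zero, a2] using a3))))
    ⟨i, by simpa using ⟨1, one_mem _, by simp⟩⟩ h2 (by simpa using h) (π := σ)
    (fun j j' e => c.smul_inj hab (smul_left_cancel l (by rw [← hσ, ← hσ, e]))) fun j j' => by
      simp only [Finset.mem_filter, Finset.mem_univ, true_and]
      exact fun ⟨k, a1, a2, a3⟩ => ⟨(c.X (σ j'))⁻¹ * l * c.X j' * k, mul_mem (mul_mem (mul_mem (inv_mem (c.X_ker _)) h3)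
        (c.X_ker _)) a1, by simp [mul_smul, a2, ← hσ], by
          simp only [mul_smul, inv_smul_eq_iff, a3, smul_smul (c.X _) (c.X _), ← c.X_add, add_sub_cancel, hσ]⟩
  obtain rfl : d = 0 := by simpa [h5] using c.smul_inj hab ((hσ 0).trans (by simp [c.X_zero, h4]) : _ = c.X 0 • b)
  exact ⟨m, fun j => by rw [← hσ, h5, add_zero]⟩

variable (h2 : ∀ {a b c d : Ω}, a ≠ b → c ≠ d → ∃ g : G, g • a = c ∧ g • b = d) (hΩ : Nat.card Ω = p ^ 2 + 1) (hab : a ≠ b)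
include h2 hΩ hab

theorem ker_eq_one {l : G} (hl : l ∈ Ker S a) (hb : l • b = b) : l = 1 := by
  by_contra h0
  have hL : ∃ l ∈ Ker S a, l • b = b ∧ l ≠ 1 := ⟨l, hl, hb, h0⟩
  obtain ⟨C, hC⟩ := exists_sys h2 hab (T := {y | a ≠ y ∧ ∀ l ∈ Ker S a, l • b = b → l • y = y}) (by simp)
    ⟨hab, fun _ _ e => e⟩ ((S.ncard_eq_iff (fun _ h => h.1) (fun x hx y hy e => c.uniq hab hL e (S.self hx.1) hy.2 hx.2)
      hΩ).mpr fun y hy => let ⟨w, h1, h2⟩ := c.exists_fix hab hy; ⟨w, ⟨S.ne h1, h2⟩, S.eq h1 ▸ S.self hy⟩)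
    fun g hg h x hx => ⟨ne_smul hg hx.1, fun l h1 h3 => by
      simpa [mul_smul, inv_smul_eq_iff] using hx.2 _ (conj_mem_Ker hg h1) (by simp [mul_smul, h.2 l h1 h3])⟩
  have h1 : ∀ x y, a ≠ x → a ≠ y → ∃ w, (w ∈ S.B a x ∧ w ∈ C.B a y) ∧ ∀ w', w' ∈ S.B a x → w' ∈ C.B a y → w' = w :=
    fun x y hx hy => by
      obtain ⟨g, e, rfl⟩ := h2 hab hy
      have e' := inv_smul_eq_iff.mpr e.symm
      obtain ⟨w, h1, h3⟩ := c.exists_fix hab (ne_smul e' hx)
      refine ⟨g • w, ⟨by simpa using S.smul' e h1, C.smul' e (hC.ge ⟨S.ne h1, h3⟩)⟩, fun w' h4 h5 => ?_⟩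
      rw [← inv_smul_eq_iff]
      exact c.uniq hab hL (S.smul' e' h4) h1 (hC.le (by simpa using C.smul' e' h5)).2 h3
  choose! m h1 h3 using h1
  obtain ⟨τ, h4, h5⟩ := h2 hab hab.symm
  set E := {y | a ≠ y ∧ y ∈ insert b (C.B b a)} with hE
  have h6 : ∀ y, y ∈ insert b (C.B b a) ↔ ∀ l ∈ Ker S a, l • b = b → (τ * l * τ⁻¹) • y = y := fun y => by
    rw [show insert b (C.B b a) = τ • insert a (C.B a b) by rw [Set.smul_set_insert, ← C.B_smul, h4, h5],
      Set.mem_smul_set_iff_inv_smul_mem, hC]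
    simp only [mul_smul, ← eq_inv_smul_iff (g := τ), Set.mem_insert_iff, Set.mem_ofPred_eq]
    exact ⟨fun h l h1 h2 => h.elim (fun e => e ▸ h1.1) fun h => h.2 l h1 h2, fun h => or_iff_not_imp_left.mpr fun e =>
      ⟨Ne.symm e, h⟩⟩
  have h7 : ∀ x ∈ E, ∀ y ∈ E, m x y ∈ E := fun x hx y hy => ⟨S.ne (h1 x y hx.1 hy.1).1, (h6 _).mpr fun l a1 a2 => by
    have a3 := (h6 a).mp (Or.inr (C.self hab.symm)) l a1 a2
    exact h3 x y hx.1 hy.1 _ (by simpa only [(h6 x).mp hx.2 l a1 a2] using S.smul' a3 (h1 x y hx.1 hy.1).1)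
      (by simpa only [(h6 y).mp hy.2 l a1 a2] using C.smul' a3 (h1 x y hx.1 hy.1).2)⟩
  have h8 : b ∈ E := ⟨hab, Or.inl rfl⟩
  have h9 : E.ncard = p := by
    have := C.ncard_insert hab.symm
    rw [show insert b (C.B b a) = insert a E from Set.ext fun y => ⟨fun h => or_iff_not_imp_left.mpr fun e =>
      ⟨Ne.symm e, h⟩, fun h => h.elim (fun e => by rw [e]; exact Or.inr (C.self hab.symm)) fun h => h.2⟩,
      Set.ncard_insert_of_notMem (by simp [hE])] at this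
    omega
  have h10 := Set.BijOn.ncard_eq (f := fun x => (m b x, m x b)) (s := E) (t := (E ∩ S.B a b) ×ˢ (E ∩ C.B a b))
    ⟨fun x hx => ⟨⟨h7 b h8 x hx, (h1 b x hab hx.1).1⟩, h7 x hx b h8, (h1 x b hx.1 hab).2⟩, fun x hx y hy e => by
      simp only [Prod.mk.injEq] at e
      rw [h3 y y hy.1 hy.1 y (S.self hy.1) (C.self hy.1)]
      refine h3 y y hy.1 hy.1 x ?_ ?_
      · rw [← S.eq (h1 y b hy.1 hab).1, ← e.2, S.eq (h1 x b hx.1 hab).1]; exact S.self hx.1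
      · rw [← C.eq (h1 b y hab hy.1).2, ← e.1, C.eq (h1 b x hab hx.1).2]; exact C.self hx.1,
    fun ⟨u, v⟩ ⟨hu, hv⟩ => ⟨m v u, h7 v hv.1 u hu.1, by
      have a1 := h1 v u hv.1.1 hu.1.1
      exact Prod.ext (h3 _ _ hab (S.ne a1.1) u hu.2 (C.eq a1.2 ▸ C.self hu.1.1)).symm
        (h3 _ _ (S.ne a1.1) hab v (S.eq a1.1 ▸ S.self hv.1.1) hv.2).symm⟩⟩
  rw [h9, Set.ncard_prod] at h10
  have key : ∀ R : Sys G Ω p, (E ∩ R.B a b).ncard ≠ p := fun R e => R.no_pair h2 hΩ C hab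
    (Set.insert_subset (Or.inr (C.self hab.symm)) fun y hy => ((Set.eq_of_subset_of_ncard_le Set.inter_subset_right
      ((R.card hab).trans e.symm).le).ge hy).1.2)
  rcases hp.out.eq_one_or_self_of_dvd _ (Dvd.intro _ h10.symm) with e | e
  exacts [key C (by simpa [e] using h10.symm), key S e]

theorem cent_eq_one {l : G} (hl : l • a = a) (hb : l • b = b) (h : ∀ i, l * c.X i = c.X i * l) : l = 1 := by
  by_contra h0
  let C := stabilizer G a ⊓ Subgroup.centralizer (Set.range c.X)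
  have h1 : ∀ g, g ∈ C ↔ g • a = a ∧ ∀ i, c.X i * g = g * c.X i := fun g => by
    simp [C, Subgroup.mem_centralizer_iff]
  have h3 : orbit C b = {a}ᶜ := Set.ext fun y => mem_orbit_sub.trans ⟨fun ⟨g, h, e⟩ => e ▸ (ne_smul h.1 hab).symm,
    fun h => let ⟨x, h, e⟩ := c.trans hab (Ne.symm h); ⟨x, (h1 x).mpr ⟨c.fix x h, fun i => c.comm _ (c.X_mem i) x h⟩, e⟩⟩
  obtain b6 | e := eq_or_eq h2 hΩ hab (S := S) (F := {y ∈ orbit C b | ∀ g ∈ C, g • b = b → g • y = y})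
    (fun y hy => ⟨h3 ▸ (S.ne hy).symm, fun g hg e => by
      obtain ⟨i, rfl⟩ := (c.row hab).mp hy
      rw [← mul_smul, ← ((h1 g).mp hg).2, mul_smul, e]⟩) (fun _ h => h3.le h.1)
    ((orbit_stab h2 hΩ hab).2 ▸ h3 ▸ ncard_fix_dvd C b)
  swap
  · exact h0 (eq_one_of_fix hl fun y hy => (e.ge hy.symm).2 l ((h1 l).mpr ⟨hl, fun i => (h i).symm⟩) hb)
  obtain ⟨τ, h5, h6⟩ := h2 hab hab.symm
  have h7 : ∀ y, y ∈ insert b (S.B b a) ↔ ∀ l ∈ C, l • b = b → (τ * l * τ⁻¹) • y = y := fun y => by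
    rw [show insert b (S.B b a) = τ • insert a (S.B a b) by rw [Set.smul_set_insert, ← S.B_smul, h5, h6],
      Set.mem_smul_set_iff_inv_smul_mem, ← b6, h3]
    simp only [mul_smul, ← eq_inv_smul_iff (g := τ), Set.mem_insert_iff, Set.mem_ofPred_eq]
    exact ⟨fun h l h1 h2 => h.elim (fun e => e ▸ h1.1) fun h => h.2 l h1 h2, fun h => or_iff_not_imp_left.mpr fun e =>
      ⟨e, h⟩⟩
  have h8 := (h7 a).mp (Or.inr (S.self hab.symm))
  have h9 := (h7 b).mp (Or.inl rfl)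
  refine S.no_pair h2 hΩ S hab fun y hy => (h7 y).mpr fun g hg e => ?_
  rcases hy with rfl | hy
  · exact h8 g hg e
  refine (b6.ge hy).2 _ (by_contra fun h10 => h10 ?_) (h9 g hg e)
  have h11 : ∀ x ∈ insert b (S.B b a) \ {a}, ∀ y ∈ insert b (S.B b a) \ {a}, y ∈ S.B a x → y = x := fun x hx y hy h => by
    obtain ⟨i, rfl⟩ := (c.row (Ne.symm hx.2)).mp h
    by_contra h12
    have a1 := conj_mem_Ker (inv_smul_eq_iff.mpr (h8 g hg e).symm) (c.X_ker i)
    have a2 := c.ker_eq_one h2 hΩ (Ne.symm hx.2) (mul_mem (inv_mem (c.X_ker i)) a1) (by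
      rw [mul_smul, mul_smul, mul_smul, inv_inv, inv_smul_eq_iff.mpr ((h7 x).mp hx.1 g hg e).symm, (h7 _).mp hy.1 g hg e,
        inv_smul_smul])
    refine h10 ((h1 _).mpr ⟨h8 g hg e, X_ind (by simp [c.X_zero]) (i := i) (by rintro rfl; simp [c.X_zero] at h12)
      fun j hj => ?_⟩)
    rw [inv_inv, inv_mul_eq_one, eq_mul_inv_iff_mul_eq] at a2
    rw [c.X_add, mul_assoc, hj, ← mul_assoc, a2, mul_assoc]
  have h12 := (S.ncard_eq_iff (fun _ h => Ne.symm h.2) h11 hΩ).mp (by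
    rw [Set.ncard_sdiff_singleton_of_mem (Set.mem_insert_of_mem _ (S.self hab.symm)), S.ncard_insert hab.symm]; rfl)
  rw [c.ker_eq_one h2 hΩ hab (l := τ * g * τ⁻¹) ⟨h8 g hg e, fun y hy => by
    obtain ⟨x, a1, a2⟩ := h12 y hy
    simpa only [(h7 x).mp a1.1 g hg e, S.eq a2] using S.smul' (h8 g hg e) a2⟩ (h9 g hg e)]
  exact one_mem _

theorem conj_X {g : G} (hg : g • a = a) (i : ZMod p) : ∃ j, g⁻¹ * c.X i * g = c.X j := by
  have h1 := conj_mem_Ker hg (c.X_ker i)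
  obtain ⟨j, hj⟩ := (c.row hab).mp (h1.2 b hab)
  exact ⟨j, (inv_mul_eq_one.mp (c.ker_eq_one h2 hΩ hab (mul_mem (inv_mem (c.X_ker j)) h1)
    (by rw [mul_smul, ← hj, inv_smul_smul]))).symm⟩

theorem conj_mem {g x : G} (hg : g • a = a) (hx : x ∈ c.P) : g * x * g⁻¹ ∈ c.P := by
  have h1 : (g * x * g⁻¹) • a = a := by simp [mul_smul, inv_smul_eq_iff.mpr hg.symm, c.fix x hx, hg]
  obtain ⟨y, hy, e⟩ := c.trans hab (ne_smul h1 hab)
  rwa [← inv_mul_eq_one.mp (c.cent_eq_one h2 hΩ hab (l := y⁻¹ * (g * x * g⁻¹))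
    (by rw [mul_smul, h1, c.fix _ (inv_mem hy)]) (by rw [mul_smul, ← e, inv_smul_smul]) fun i => by
      obtain ⟨j, hj⟩ := c.conj_X h2 hΩ hab hg i
      rw [mul_assoc y⁻¹, ← mul_assoc (c.X i), c.comm _ (c.X_mem i) _ (inv_mem hy), mul_assoc y⁻¹, mul_right_inj]
      calc _ = g * (x * (g⁻¹ * c.X i * g)) * g⁻¹ := by group
        _ = _ := by rw [hj, c.comm x hx _ (c.X_mem j), ← hj]; group)]

theorem eq_one_of_three {g : G} (h1 : g • a = a) (h3 : g • b = b) {y : Ω} (hy : a ≠ y) (hy' : b ≠ y) (h4 : g • y = y) :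
    g = 1 := by
  obtain ⟨z, hz, rfl⟩ := c.trans hab hy
  have h5 : g * z = z * g := by
    have := c.free _ (mul_mem (inv_mem hz) (c.conj_mem h2 hΩ hab h1 hz)) hab (by
      simp [mul_smul, inv_smul_eq_iff.mpr h3.symm, h4])
    rwa [inv_mul_eq_one, eq_mul_inv_iff_mul_eq, eq_comm] at this
  by_cases h6 : ∃ i, c.X i = z
  · obtain ⟨i, rfl⟩ := h6
    exact c.cent_eq_one h2 hΩ hab h1 h3 (X_ind (by simp [c.X_zero]) (i := i) (by rintro rfl; simp [c.X_zero] at hy')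
      fun j hj => by rw [c.X_add, ← mul_assoc, h5, mul_assoc, hj, mul_assoc])
  let T := sub (G := G)
    { carrier := {x ∈ c.P | g • x • b ∈ S.B a (x • b)}
      one_mem' := ⟨one_mem _, by simpa [h3] using S.self hab⟩
      mul_mem' := fun {x y} hx hy => ⟨mul_mem hx.1 hy.1, by
        have a1 := c.conj_mem h2 hΩ hab h1 hx.1
        have a2 := S.smul' (c.fix _ a1) hy.2
        rw [smul_smul _ y, c.comm _ a1 y hy.1] at a2
        rw [c.comm x hx.1 y hy.1, mul_smul y x, ← S.eq (S.smul' (c.fix _ hy.1) hx.2), smul_smul y x, ← c.comm x hx.1 y hy.1]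
        simpa [mul_smul, inv_smul_eq_iff.mpr h3.symm] using a2⟩ }
  have h7 : T ≤ c.P := fun _ h => h.1
  have h8 : Nat.card c.P = p ^ 2 := by
    rw [card_eq_mul _ b, show c.P ⊓ stabilizer G b = ⊥ from eq_bot_iff.mpr fun x hx => c.free x hx.1 hab hx.2,
      show orbit c.P b = {a}ᶜ from Set.ext fun y =>
      mem_orbit_sub.trans ⟨fun ⟨x, h, e⟩ => e ▸ (ne_smul (c.fix x h) hab).symm, fun h => c.trans hab (Ne.symm h)⟩,
      (orbit_stab h2 hΩ hab).2]; simp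
  obtain e | e := eq_or_eq h2 hΩ hab (S := S) (F := orbit T b) (fun y hy => by
      obtain ⟨i, rfl⟩ := (c.row hab).mp hy
      exact mem_orbit_sub.mpr ⟨_, ⟨c.X_mem i, by simpa [h3, S.eq hy] using S.smul' h1 hy⟩, rfl⟩)
    (fun y hy => let ⟨x, h, e⟩ := mem_orbit_sub.mp hy; e ▸ (ne_smul (c.fix x h.1) hab).symm)
    ((Dvd.intro_left _ (card_eq_mul T b).symm).trans (h8 ▸ Subgroup.card_dvd_of_le h7))
  · obtain ⟨i, hi⟩ := (c.row hab).mp (e.le (mem_orbit_sub.mpr ⟨z, ⟨hz, by rw [h4]; exact S.self hy⟩, rfl⟩))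
    exact absurd ⟨i, (inv_mul_eq_one.mp (c.free _ (mul_mem (inv_mem hz) (c.X_mem i)) hab
      (by rw [mul_smul, hi, inv_smul_smul]))).symm⟩ h6
  · refine c.ker_eq_one h2 hΩ hab ⟨h1, fun y hy => ?_⟩ h3
    obtain ⟨x, h, rfl⟩ := mem_orbit_sub.mp (e.ge hy.symm)
    exact h.2

theorem card_le : Nat.card ↥(stabilizer G a ⊓ stabilizer G b) + 1 ≤ p := by
  have h1 : c.X 1 • b ∈ S.B a b \ {b} := ⟨(c.row hab).mpr ⟨1, rfl⟩, fun e =>
    one_ne_zero (c.smul_inj hab (e.trans (by simp [c.X_zero]) : _ = c.X 0 • b))⟩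
  have := Set.ncard_le_ncard_of_injOn (s := (stabilizer G a ⊓ stabilizer G b : Subgroup G)) (t := S.B a b \ {b})
    (· • c.X 1 • b) (fun g hg => ⟨by simpa [show g • b = b from hg.2] using S.smul' hg.1 h1.1, fun e =>
      h1.2 (smul_left_cancel g (e.trans hg.2.symm))⟩) fun g hg g' hg' e => inv_mul_eq_one.mp (c.eq_one_of_three h2 hΩ hab
        (by rw [mul_smul, hg'.1, inv_smul_eq_iff, hg.1]) (by rw [mul_smul, hg'.2, inv_smul_eq_iff, hg.2]) (S.ne h1.1) (Ne.symm h1.2)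
        (by rw [mul_smul, ← show g • _ = g' • _ from e, inv_smul_smul]))
  rw [Set.ncard_sdiff_singleton_of_mem (S.self hab), S.card hab] at this
  exact Nat.add_le_of_le_sub hp.out.pos this

theorem odd_card : Odd (Nat.card ↥(stabilizer G a ⊓ stabilizer G b)) := by
  classical
  by_contra h0
  obtain ⟨j, hj⟩ := exists_prime_orderOf_dvd_card' 2 (even_iff_two_dvd.mp (Nat.not_odd_iff_even.mp h0))
  have h1 : (j : G) * j = 1 := by simpa [hj, sq] using congrArg Subtype.val (pow_orderOf_eq_one j)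
  have h3 : (j : G) ≠ 1 := fun e => by simp [show j = 1 from Subtype.ext e] at hj
  have h4 : ∀ y, a ≠ y → ∃ t : G, t • a = a ∧ t • b = y ∧ t • y = b := fun y hy => by
    obtain ⟨x, hx, rfl⟩ := c.trans hab hy
    have a1 := c.conj_mem h2 hΩ hab j.2.1 hx
    rw [inv_eq_of_mul_eq_one_right h1] at a1
    refine ⟨x * j, by rw [mul_smul, j.2.1, c.fix x hx], by rw [mul_smul, j.2.2], by_contra fun e => h3 ?_⟩
    refine c.eq_one_of_three h2 hΩ hab j.2.1 j.2.2 (ne_smul (by rw [mul_smul, j.2.1, c.fix x hx]) hy) (Ne.symm e) ?_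
    calc _ = (j * x * j * x) • b := by simp [mul_smul]
      _ = _ := by rw [c.comm _ a1 x hx]; simp [mul_smul, show (j : G) • b = b from j.2.2]
  have h5 : ∀ y, ∃ t : G, a ≠ y → b ≠ y → t • a = b ∧ t • b = a ∧ t • y = y := fun y => by
    by_cases hy : a = y
    · simp [hy]
    by_cases hy' : b = y
    · simp [hy']
    obtain ⟨g, e, rfl⟩ := h2 hab.symm hy
    obtain ⟨t, a1, a2, a3⟩ := h4 (g⁻¹ • b) fun e => hy' (inv_smul_eq_iff.mp e.symm)
    exact ⟨g * t * g⁻¹, fun _ _ => ⟨by simp [mul_smul, a2, inv_smul_eq_iff.mpr e.symm], by simp [mul_smul, a3, e],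
      by simp [mul_smul, a1]⟩⟩
  choose t ht using h5
  have := Fintype.ofFinite G
  have := Fintype.ofFinite Ω
  obtain ⟨τ, h5, h6⟩ := h2 hab hab.symm
  have h7 := Finset.card_le_mul_card_image_of_maps_to (f := t) (s := {a, b}ᶜ)
    (t := (Finset.univ.filter (· ∈ stabilizer G a ⊓ stabilizer G b)).image (τ * ·)) (fun y hy => by
      simp only [Finset.mem_compl, Finset.mem_insert, Finset.mem_singleton, not_or] at hy
      obtain ⟨a1, a2, -⟩ := ht y (Ne.symm hy.1) (Ne.symm hy.2)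
      exact Finset.mem_image.mpr ⟨τ⁻¹ * t y, by simp [mul_smul, a1, a2, inv_smul_eq_iff, h5, h6], by simp⟩) 2
    fun g _ => not_lt.mp fun h => by
      obtain ⟨x, y, z, hx, hy, hz, a1, a2, a3⟩ := Finset.two_lt_card_iff.mp h
      simp only [Finset.mem_filter, Finset.mem_compl, Finset.mem_insert, Finset.mem_singleton, not_or] at hx hy hz
      have a4 := ht x (Ne.symm hx.1.1) (Ne.symm hx.1.2)
      have a5 := ht y (Ne.symm hy.1.1) (Ne.symm hy.1.2)
      have a6 := ht z (Ne.symm hz.1.1) (Ne.symm hz.1.2)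
      rw [hx.2] at a4; rw [hy.2] at a5; rw [hz.2] at a6
      obtain ⟨k, rfl, rfl⟩ := h2 hab a1
      have := c.eq_one_of_three h2 hΩ hab (g := k⁻¹ * g * k) (by simp [mul_smul, a4.2.2]) (by simp [mul_smul, a5.2.2])
        (y := k⁻¹ • z) (fun e => a2 (inv_smul_eq_iff.mp e.symm).symm) (fun e => a3 (inv_smul_eq_iff.mp e.symm).symm)
        (by simp [mul_smul, a6.2.2])
      rw [mul_assoc, inv_mul_eq_one, eq_comm, mul_eq_right] at this
      exact hab (by simpa [this] using a4.1)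
  have h8 := c.card_le h2 hΩ hab
  rw [Finset.card_compl, Finset.card_pair hab, Finset.card_image_of_injective _ (mul_right_injective τ),
    ← Nat.card_eq_fintype_card, hΩ, ← Fintype.card_subtype, ← Nat.card_eq_fintype_card, tsub_le_iff_right] at h7
  have := hp.out.one_lt
  nlinarith

theorem eq_two : p = 2 := by
  classical
  by_contra h0
  have h1 := hp.out.odd_of_ne_two h0
  have := Fintype.ofFinite Ω
  have h3 : ∀ (y : Ω) (g : G), g • y = y → Odd (orderOf g) := fun y g hg => by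
    obtain ⟨k, rfl⟩ : ∃ k : G, k • a = y := by
      by_cases h : b = y
      exacts [(h2 hab hab.symm).imp fun _ e => e.1.trans h, (h2 hab.symm h).imp fun _ e => e.2]
    have a1 : Odd (Nat.card (stabilizer G a)) := card_stab h2 hΩ hab ▸ (c.odd_card h2 hΩ hab).mul h1.pow
    have a2 := Subgroup.orderOf_dvd_natCard (stabilizer G a) (x := k⁻¹ * g * k) (by simp [mul_smul, hg])
    rw [show k⁻¹ * g * k = (MulAut.conj k).symm g by simp, MulEquiv.orderOf_eq] at a2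
    exact a1.of_dvd_nat a2
  let φ := Equiv.Perm.sign.comp (toPermHom G Ω)
  have h4 : ∀ (y : Ω) (g : G), g • y = y → φ g = 1 := fun y g hg => by
    refine (Int.units_eq_one_or _).resolve_right fun e => ?_
    have := congrArg φ (pow_orderOf_eq_one g)
    rw [map_pow, map_one, e, (h3 y g hg).neg_one_pow] at this
    exact absurd this (by decide)
  obtain ⟨y, hy⟩ : ({a, b}ᶜ : Set Ω).Nonempty := Set.nonempty_of_ncard_ne_zero (by
    have := hp.out.one_lt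
    rw [Set.ncard_compl, hΩ, Set.ncard_pair hab, Nat.sub_ne_zero_iff_lt]; nlinarith)
  simp only [Set.mem_compl_iff, Set.mem_insert_iff, Set.mem_singleton_iff, not_or] at hy
  obtain ⟨u, a1, a2⟩ := h2 hy.1 hy.2
  obtain ⟨v, a3, a4⟩ := h2 (show b ≠ u • b from fun e => hab (smul_left_cancel u (a2.trans e))) hab.symm
  have a5 : (v * u * (v * u)) • a = a := by simp [mul_smul, a2, a3, a4]
  obtain ⟨k, hk⟩ := h3 a _ a5
  have a6 : ((v * u) ^ (2 * k + 1)) ^ 2 = 1 := by rw [← pow_mul, mul_comm, pow_mul, sq, ← hk, pow_orderOf_eq_one]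
  have a7 : (v * u) ^ (2 * k + 1) • a = b := by
    rw [pow_succ', pow_mul, sq, mul_smul, show _ • a = a from pow_mem (show v * u * (v * u) ∈ stabilizer G a from a5) k,
      mul_smul, a2, a3]
  have a8 := Equiv.Perm.sign_of_pow_two_eq_one (σ := toPermHom G Ω ((v * u) ^ (2 * k + 1))) (by rw [← map_pow, a6, map_one])
  have : IsEmpty (Function.fixedPoints (toPermHom G Ω ((v * u) ^ (2 * k + 1)))) := ⟨fun ⟨x, hx⟩ => by
    have := (h3 x _ hx).coprime_two_right.eq_one_of_dvd (orderOf_dvd_of_pow_eq_one a6)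
    exact hab (by simpa [orderOf_eq_one_iff.mp this] using a7)⟩
  obtain ⟨m, rfl⟩ := h1
  rw [Fintype.card_eq_zero (α := Function.fixedPoints _), ← Nat.card_eq_fintype_card, hΩ, show ((2 * m + 1) ^ 2 + 1 - 0) / 2 = 2 * (m * m + m) + 1 by
    rw [Nat.sub_zero, Nat.div_eq_iff_eq_mul_left two_pos ⟨2 * (m * m + m) + 1, by ring⟩]; ring] at a8
  simpa [h4 _ _ a1, h4 _ _ a3, pow_succ, pow_mul] using (show φ _ = _ from a8)

end Ctx

theorem doubly_primitive (hΩ : Nat.card Ω = p ^ 2 + 1) (h : IsMultiplyPretransitive G Ω 2) (a : Ω) :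
    IsPreprimitive (stabilizer G a) (SubMulAction.ofStabilizer G a) ∨ (p = 2 ∧ Nat.card G = 20) := by
  have h2 := @is_two_pretransitive_iff.mp h
  refine or_iff_not_imp_left.mpr fun h0 => ?_
  have : IsPretransitive (stabilizer G a) (SubMulAction.ofStabilizer G a) := ⟨fun x y =>
    let ⟨g, h1, h3⟩ := h2 (Ne.symm x.2) (Ne.symm y.2); ⟨⟨g, h1⟩, Subtype.ext h3⟩⟩
  obtain ⟨B, h1, h3⟩ : ∃ B : Set (SubMulAction.ofStabilizer G a), IsBlock (stabilizer G a) B ∧ ¬ IsTrivialBlock B := by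
    by_contra h
    push Not at h
    exact h0 ⟨fun hB => h _ hB⟩
  rw [IsTrivialBlock, not_or, Set.not_subsingleton_iff] at h3
  obtain ⟨b, hb⟩ := h3.1.nonempty
  have h4 := h1.ncard_dvd_card ⟨b, hb⟩
  have h5 : Nat.card (SubMulAction.ofStabilizer G a) = p ^ 2 := by rw [SubMulAction.nat_card_ofStabilizer_eq, hΩ]; rfl
  obtain ⟨k, h6, h7⟩ := (Nat.dvd_prime_pow hp.out).mp (h5 ▸ h4)
  have hab : a ≠ b := Ne.symm b.2
  obtain ⟨S, -⟩ := exists_sys (p := p) h2 hab (T := Subtype.val '' B) (fun ⟨x, _, e⟩ => x.2 e) ⟨b, hb, rfl⟩ (by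
      rw [Set.ncard_image_of_injective _ Subtype.val_injective]
      interval_cases k
      · exact absurd (Set.ncard_le_one_iff_subsingleton.mp h7.le) (Set.not_subsingleton_iff.mpr h3.1)
      · rw [h7, pow_one]
      · exact absurd ((Set.eq_univ_iff_ncard B).mpr (h7.trans h5.symm)) h3.2)
    (by
      rintro g hg ⟨x, hx, e⟩ _ ⟨y, hy, rfl⟩
      exact ⟨(⟨g, hg⟩ : stabilizer G a) • y, (isBlock_iff_smul_eq_of_mem.mp h1 hb (show (⟨g, hg⟩ : stabilizer G a) • b ∈ B from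
        (Subtype.ext e : x = (⟨g, hg⟩ : stabilizer G a) • b) ▸ hx)).le (Set.smul_mem_smul_set hy), rfl⟩)
  obtain ⟨c⟩ := exists_ctx h2 hΩ hab S
  have h8 := c.card_le h2 hΩ hab
  have h9 := card_stab h2 hΩ hab
  have := isPretransitive_of_is_two_pretransitive (G := G) (α := Ω)
  have h10 := (stabilizer G a).card_mul_index
  rw [index_stabilizer_of_transitive G a, hΩ, h9] at h10
  have h11 := Nat.card_pos (α := ↥(stabilizer G a ⊓ stabilizer G (b : Ω)))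
  obtain rfl := c.eq_two h2 hΩ hab
  exact ⟨rfl, by omega⟩

end Cfsg.Agent.Perm
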